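import Cfsg.Agent.Lib.Helper67.LSF.Defs

/-!
LSF (S5286), package [FWD]: conjugation by the stable letter `t_i` is `φ_i` on `lam (P_i)`.
-/

set_option autoImplicit false

namespace Cfsg.Agent.Lib.Helper8.LSF

open Cfsg Cfsg.Agent.Lib.Helper67.LSF

universe u

theorem pkgFwd : PkgFwd.{u} := by
  intro Ω _ S F i u
  -- notation
  set l : Equiv.Perm S := lam S ⟨u, (F.le_of_mem i.mem).1 u.2⟩ with hl
  set l' : Equiv.Perm S := lam S ⟨i.φ u, (F.le_of_mem i.mem).2 u⟩ with hl'
  have hmem : l ∈ Lam i := by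
    refine ⟨⟨u, (F.le_of_mem i.mem).1 u.2⟩, ?_, rfl⟩
    show (⟨u, (F.le_of_mem i.mem).1 u.2⟩ : S) ∈ i.P.subgroupOf S
    rw [Subgroup.mem_subgroupOf]
    exact u.2
  -- the letter `x0 i` is fixed by `l`
  have hfix : xperm F l (x0 i) = x0 i := by
    show xperm F l ⟨i, ((1 : Equiv.Perm S) : Equiv.Perm S ⧸ Lam i)⟩ = x0 i
    rw [xperm_mk]
    show (⟨i, ((l * 1 : Equiv.Perm S) : Equiv.Perm S ⧸ Lam i)⟩ : X F) = ⟨i, ((1 : Equiv.Perm S) : Equiv.Perm S ⧸ Lam i)⟩
    congr 1
    rw [QuotientGroup.eq]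
    simpa using (Lam i).inv_mem hmem
  have haut : autF F l (FreeGroup.of (x0 i)) = FreeGroup.of (x0 i) := by
    show autX (xperm F) l (FreeGroup.of (x0 i)) = FreeGroup.of (x0 i)
    rw [autX_of, hfix]
  -- hence `inl (of x0)` commutes with `inr l`
  have hcomm : (SemidirectProduct.inl (FreeGroup.of (x0 i)) : Ghat F) * SemidirectProduct.inr l =
      SemidirectProduct.inr l * SemidirectProduct.inl (FreeGroup.of (x0 i)) := by
    have h := SemidirectProduct.inl_aut (φ := autF F) l (FreeGroup.of (x0 i))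
    rw [haut] at h
    calc (SemidirectProduct.inl (FreeGroup.of (x0 i)) : Ghat F) * SemidirectProduct.inr l
        = (SemidirectProduct.inr l * SemidirectProduct.inl (FreeGroup.of (x0 i)) *
            SemidirectProduct.inr l⁻¹) * SemidirectProduct.inr l := by rw [← h]
      _ = SemidirectProduct.inr l * SemidirectProduct.inl (FreeGroup.of (x0 i)) := by
          rw [mul_assoc, ← map_mul, inv_mul_cancel, map_one, mul_one]
  -- the permutation identity
  have hconj : i.σ * l * i.σ⁻¹ = l' := by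
    refine Equiv.ext fun x => ?_
    have h := i.hσ u (i.σ⁻¹ x)
    simp only [Equiv.Perm.coe_mul, Function.comp_apply, hl, hl', lam_apply]
    rw [h]
    simp
  show SemidirectProduct.inr i.σ * SemidirectProduct.inl (FreeGroup.of (x0 i)) *
      SemidirectProduct.inr l *
      (SemidirectProduct.inr i.σ * SemidirectProduct.inl (FreeGroup.of (x0 i)))⁻¹ =
    (SemidirectProduct.inr l' : Ghat F)
  calc (SemidirectProduct.inr i.σ * SemidirectProduct.inl (FreeGroup.of (x0 i)) *
      SemidirectProduct.inr l *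
      (SemidirectProduct.inr i.σ * SemidirectProduct.inl (FreeGroup.of (x0 i)))⁻¹ : Ghat F)
      = SemidirectProduct.inr i.σ * (SemidirectProduct.inl (FreeGroup.of (x0 i)) *
          SemidirectProduct.inr l) * (SemidirectProduct.inl (FreeGroup.of (x0 i)))⁻¹ *
          (SemidirectProduct.inr i.σ)⁻¹ := by group
    _ = SemidirectProduct.inr i.σ * (SemidirectProduct.inr l *
          SemidirectProduct.inl (FreeGroup.of (x0 i))) *
          (SemidirectProduct.inl (FreeGroup.of (x0 i)))⁻¹ *
          (SemidirectProduct.inr i.σ)⁻¹ := by rw [hcomm]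
    _ = SemidirectProduct.inr i.σ * SemidirectProduct.inr l * (SemidirectProduct.inr i.σ)⁻¹ := by
          group
    _ = SemidirectProduct.inr (i.σ * l * i.σ⁻¹) := by
          rw [map_mul, map_mul, map_inv]
    _ = SemidirectProduct.inr l' := by rw [hconj]

end Cfsg.Agent.Lib.Helper8.LSF
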