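import Mathlib

/-!
LSF (S5286) generic lemma: two injective homomorphisms `a b : P →* S` into a finite group give two free
left-translation actions of `P` on `S`; they are intertwined by a permutation of `S`.
-/

set_option autoImplicit false

namespace Cfsg.Agent.Lib.Helper8.LSF

universe u v

section
variable {P : Type u} {S : Type v} [Group P] [Group S]

/-- The orbit relation of the left translation action of `P` on `S` through `a`. -/
def transSetoid (a : P →* S) : Setoid S where
  r s s' := ∃ u : P, a u * s = s'
  iseqv := by
    refine ⟨fun s => ⟨1, by simp⟩, ?_, ?_⟩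
    · rintro s s' ⟨u, rfl⟩
      exact ⟨u⁻¹, by simp⟩
    · rintro s s' s'' ⟨u, rfl⟩ ⟨w, rfl⟩
      exact ⟨w * u, by simp [mul_assoc]⟩

/-- `P × (orbits)` is in bijection with `S`, equivariantly. -/
noncomputable def transEquiv (a : P →* S) (ha : Function.Injective a) :
    P × Quotient (transSetoid a) ≃ S :=
  Equiv.ofBijective (fun x => a x.1 * (Quotient.out x.2)) (by
    constructor
    · rintro ⟨u, c⟩ ⟨w, d⟩ h
      simp only at h
      have hcd : c = d := by
        rw [← Quotient.out_eq c, ← Quotient.out_eq d]
        apply Quotient.sound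
        refine ⟨w⁻¹ * u, ?_⟩
        rw [map_mul, map_inv, mul_assoc, h, inv_mul_cancel_left]
      subst hcd
      have : a u = a w := mul_right_cancel h
      rw [ha this]
    · intro s
      obtain ⟨u, hu⟩ : ∃ u : P, a u * Quotient.out (Quotient.mk (transSetoid a) s) = s :=
        Quotient.mk_out (s := transSetoid a) s
      exact ⟨(u, Quotient.mk (transSetoid a) s), hu⟩)

theorem transEquiv_apply (a : P →* S) (ha : Function.Injective a) (u : P)
    (c : Quotient (transSetoid a)) : transEquiv a ha (u, c) = a u * Quotient.out c := rfl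

theorem transEquiv_mul (a : P →* S) (ha : Function.Injective a) (w u : P)
    (c : Quotient (transSetoid a)) : transEquiv a ha (w * u, c) = a w * transEquiv a ha (u, c) := by
  simp [transEquiv_apply, mul_assoc]

theorem transEquiv_symm_mul (a : P →* S) (ha : Function.Injective a) (w : P) (s : S) :
    (transEquiv a ha).symm (a w * s) =
      (w * ((transEquiv a ha).symm s).1, ((transEquiv a ha).symm s).2) := by
  rw [Equiv.symm_apply_eq, transEquiv_mul]
  simp

/-- **SIGMA**: two injective homomorphisms `a b : P →* S` into a finite group are intertwined by a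
permutation `σ` of `S`: `σ (a u * s) = b u * σ s`. -/
theorem exists_perm_intertwine [Finite S] (a b : P →* S) (ha : Function.Injective a)
    (hb : Function.Injective b) :
    ∃ σ : Equiv.Perm S, ∀ (u : P) (s : S), σ (a u * s) = b u * σ s := by
  haveI : Finite P := Finite.of_injective a ha
  haveI : Finite (Quotient (transSetoid a)) := Quotient.finite _
  haveI : Finite (Quotient (transSetoid b)) := Quotient.finite _
  have h1 : Nat.card P * Nat.card (Quotient (transSetoid a)) = Nat.card S := by
    rw [← Nat.card_prod]; exact Nat.card_congr (transEquiv a ha)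
  have h2 : Nat.card P * Nat.card (Quotient (transSetoid b)) = Nat.card S := by
    rw [← Nat.card_prod]; exact Nat.card_congr (transEquiv b hb)
  have hP : 0 < Nat.card P := Nat.card_pos
  have h3 : Nat.card (Quotient (transSetoid a)) = Nat.card (Quotient (transSetoid b)) :=
    Nat.eq_of_mul_eq_mul_left hP (h1.trans h2.symm)
  obtain ⟨e⟩ := Finite.card_eq.mp h3
  refine ⟨(transEquiv a ha).symm.trans
    ((Equiv.prodCongr (Equiv.refl P) e).trans (transEquiv b hb)), fun u s => ?_⟩
  simp only [Equiv.trans_apply, Equiv.prodCongr_apply, Equiv.coe_refl]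
  rw [transEquiv_symm_mul]
  simp only [Prod.map_apply, id_eq]
  rw [transEquiv_mul]
  rfl

/-- Subgroup form: for a subgroup `P₀` of a finite group `S` and an injective `φ : P₀ →* S` there is a
permutation `σ` of `S` with `σ (u * s) = φ u * σ s` for `u ∈ P₀`. -/
theorem exists_perm_intertwine_subgroup [Finite S] (P₀ : Subgroup S) (φ : P₀ →* S)
    (hφ : Function.Injective φ) :
    ∃ σ : Equiv.Perm S, ∀ (u : P₀) (s : S), σ ((u : S) * s) = φ u * σ s :=
  exists_perm_intertwine P₀.subtype φ P₀.subtype_injective hφ

/-- Conjugation form in `Equiv.Perm S`, with `lam = MulAction.toPermHom S S` the left regular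
representation: `σ * lam (a u) * σ⁻¹ = lam (b u)`. -/
theorem exists_perm_conj [Finite S] (a b : P →* S) (ha : Function.Injective a)
    (hb : Function.Injective b) :
    ∃ σ : Equiv.Perm S, ∀ u : P,
      σ * MulAction.toPermHom S S (a u) * σ⁻¹ = MulAction.toPermHom S S (b u) := by
  obtain ⟨σ, hσ⟩ := exists_perm_intertwine a b ha hb
  refine ⟨σ, fun u => ?_⟩
  ext s
  have := hσ u (σ⁻¹ s)
  simpa [MulAction.toPermHom_apply, MulAction.toPerm_apply] using this

end

end Cfsg.Agent.Lib.Helper8.LSF
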