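import Cfsg.Agent.Lib.Helper67.LSF.Defs
import Cfsg.Agent.Lib.Helper8.LSF.Sigma

/-!
LSF (S5286), package [SIG]: an intertwining permutation exists for every map of the system.
-/

set_option autoImplicit false

namespace Cfsg.Agent.Lib.Helper8.LSF

open Cfsg Cfsg.Agent.Lib.Helper67.LSF

universe u

theorem pkgSig : PkgSig.{u} := by
  intro Ω _ S _ F P φ h
  have hinj : Function.Injective (φ.codRestrict S (F.le_of_mem h).2) := by
    intro x y hxy
    apply F.injective_of_mem h
    have := congrArg (fun z : S => (z : Ω)) hxy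
    simpa using this
  obtain ⟨σ, hσ⟩ := exists_perm_intertwine (Subgroup.inclusion (F.le_of_mem h).1)
    (φ.codRestrict S (F.le_of_mem h).2) (Subgroup.inclusion_injective _) hinj
  exact ⟨σ, fun u x => hσ u x⟩

end Cfsg.Agent.Lib.Helper8.LSF
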